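import Cfsg.Agent.H678.PV.RowHNThree
import Cfsg.Agent.H680.HNF.ThreeB
import Cfsg.Agent.H728.Four.HNThreeComm
import Cfsg.Agent.H569.HNThree
import Cfsg.Agent.BpSpor.LocalCrit

/-!
# The centralizers of the elements of order 3 of the Harada-Norton group: at most 544320 (helper134)
-/

set_option autoImplicit false

namespace Cfsg.Agent.H134.TM

open Cfsg Cfsg.Agent
open Subgroup (centralizer)

/-- **`|C(g)| ≤ 544320`, `g ∈ HN` of order 3.** -/
theorem hn_three {g : Spor.HN} (hg : orderOf g = 3) :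
    Nat.card ↥(centralizer ({g} : Set Spor.HN)) ≤ 544320 := by
  have h3 : g ^ 3 = 1 := by rw [← hg]; exact pow_orderOf_eq_one g
  obtain ⟨t, ht, htg⟩ := H728.Four.HN3C.comm_inv h3
  have h1 : g ≠ 1 := by
    rintro rfl
    rw [orderOf_one] at hg
    omega
  obtain ⟨c, hc⟩ := H569.HNThree.conj_of_comm (y := g) ⟨1, by rw [pow_one]; exact h3⟩ ht htg.symm h1
  rcases hc with hc | hc
  · rw [← BpSpor.card_cent_of_conj hc]
    have h := H678.PV.HNThree.card_C
    rw [H678.PV.HNThree.card_KK] at h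
    exact h
  · rw [← BpSpor.card_cent_of_conj hc]
    refine le_of_eq_of_le H680.HNF.card_cent_X3 (by norm_num)

end Cfsg.Agent.H134.TM
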